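import Cfsg.Agent.Lib.AN.Fix
import Cfsg.Agent.Lib.NF.C1
import Cfsg.Agent.Lib.FQ.End

/-!
# The conjugates of a block under the operator group commute

Notation: `E = J ⊓ 𝐂(V)`, `E' = J ⊓ 𝐂(V')`, `⟨z⟩ = ⁅V, J⁆`.
-/

set_option autoImplicit false
set_option linter.unusedSectionVars false

namespace Cfsg.Lib.AN

open Subgroup Cfsg.Lib.BG Cfsg.Lib.Transfer Cfsg.Lib.Loc Cfsg.Lib.PLocal Cfsg.Lib.FH Cfsg.Lib.FQ
open Cfsg.Lib.NF (Tor c1_nc c1_or comm_cent)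
open scoped commutatorElement

variable {X : Type*} [Group X] [Finite X] {A J K N S V V' : Subgroup X} {g g' k t x y y' z : X}

/-- `J` is weakly closed. -/
def Wk (N J : Subgroup X) : Prop := ∀ T ≤ N, IsPGroup 2 T → J ≤ T → ∀ n, n ⋆ J ≤ T → n ⋆ J = J

theorem wk_J (hS : Syl 2 S N) : Wk N (𝐉 S) := fun T h1 h2 h3 n h4 => by
  haveI := Fact.mk Nat.prime_two
  obtain ⟨c, -, e⟩ := hS.exists_conj_le h2 h1
  have e1 := conj_thompsonSubgroupOf_eq_of_le ((conj_mono c h3).trans e)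
  have e2 := (conj_mono c h4).trans e
  rw [conj_conj] at e2
  rw [← inv_conj_conj c (n ⋆ 𝐉 S), conj_conj (g := c), conj_thompsonSubgroupOf_eq_of_le e2]
  nth_rw 1 [← e1]
  exact inv_conj_conj _ _

theorem comm_V (b : Tq J V) : ⁅V, J⁆ ≤ V := comm_le_left b.nV

theorem ex_z (b : Bq J V g) (e : 𝐂(V).relIndex J = 2) :
    ∃ z, z ≠ 1 ∧ z * z = 1 ∧ z ∉ 𝐂[g] ∧ ⁅V, J⁆ = zpowers z := by
  obtain ⟨v, hv, nv⟩ := SetLike.not_le_iff_exists.1 b.nc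
  obtain ⟨t, ht, nt⟩ := SetLike.not_le_iff_exists.1 fun k : J ≤ 𝐂(V) => b.nc (le_centralizer_iff.1 k)
  have hz : ⁅t, v⁆ ∈ ⁅V, J⁆ := commutatorElement_inv v t ▸ inv_mem (commutator_mem_commutator hv ht)
  have zg : ⁅t, v⁆ ∉ 𝐂[g] := fun k => (b.nd v hv t ht k).elim nt nv
  refine ⟨⁅t, v⁆, fun k => zg (k ▸ one_mem _), el_sq b.el (comm_V b.toTq hz), zg,
    le_antisymm (commutator_le.2 fun w hw s hs => ?_) (zpowers_le.2 hz)⟩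
  by_cases h1 : w ∈ 𝐂(J)
  · exact commutatorElement_eq_one_iff_mul_comm.2 (mem_centralizer_iff.1 h1 s hs).symm ▸ one_mem _
  by_cases h2 : s ∈ 𝐂(V)
  · exact commutatorElement_eq_one_iff_mul_comm.2 (mem_centralizer_iff.1 h2 w hw) ▸ one_mem _
  have c := mem_centralizer_iff.1 (end_two (b.idx.trans e) (inv_mem hv) hw (mt inv_mem_iff.1 nv) h1) s hs
  have e := mem_centralizer_iff.1 (end_two e (inv_mem ht) hs (mt inv_mem_iff.1 nt) h2) _ (inv_mem hv)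
  have : ⁅w, s⁆ = ⁅t, v⁆⁻¹ := by
    simp only [commutatorElement_def]
    calc _ = v * (v⁻¹ * w * s) * w⁻¹ * s⁻¹ := by group
      _ = v * t * (t⁻¹ * s * v⁻¹) * s⁻¹ := by rw [← c]; group
      _ = _ := by rw [← e]; group
  exact this ▸ inv_mem (mem_zpowers _)

section two

variable (b : Bq J V g) (b' : Bq J V' g') (n : ¬ V ≤ 𝐂(V')) (e : 𝐂(V).relIndex J = 2)
  (hz : ⁅V, J⁆ = zpowers z) (z1 : z ≠ 1) (z2 : z * z = 1)
include b b' n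

include e in
/-- `|Z(E) : Z(J)| = 2`. -/
theorem zc (hy : y ∈ J ⊓ 𝐂(V) ⊓ 𝐂(J ⊓ 𝐂(V))) (hy' : y' ∈ J ⊓ 𝐂(V) ⊓ 𝐂(J ⊓ 𝐂(V))) (h1 : y ∉ 𝐂(J))
    (h2 : y' ∉ 𝐂(J)) : y * y' ∈ 𝐂(J) := by
  have k : ∀ y ∈ 𝐂(J ⊓ 𝐂(V)), y ∈ 𝐂(V') → y ∈ 𝐂(J) := fun y a c =>
    cent_anti (b.toTq.le_sup b'.toTq n) (by rw [cent_sup]; exact ⟨c, a⟩)
  exact k _ (mul_mem hy.2 hy'.2) (end_two ((b.toTq.idx_eq b'.toTq n).trans e) hy.1.1 hy'.1.1
    (fun c => h1 (k y hy.2 c)) fun c => h2 (k y' hy'.2 c))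

include hz z1 z2

theorem z_fix (h1 : k ∈ 𝐍(J)) (h2 : k ∈ 𝐍(J ⊓ 𝐂(V))) : k * z * k⁻¹ = z := by
  have u := (b.conj' h1).toTq
  have n' : ¬ V' ≤ 𝐂(V) := fun c => n (cent_symm c)
  have n1 : ¬ k ⋆ V ≤ 𝐂(V') := fun c => n' (((le_inf b'.le (cent_symm c)).trans
    ((conj_E h1).symm.trans (conj_eq_of_norm h2)).le).trans inf_le_right)
  have := (u.comm_le b'.toTq n1).trans (b'.toTq.comm_le b.toTq n')
  rw [← conj_eq_of_norm h1, ← conj_commutator, conj_eq_of_norm h1, hz] at this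
  exact (pu_zp z2 (this (conj_mem_conj.2 (mem_zpowers z)))).resolve_left (by simpa using z1)

omit b' n z1 z2 in
theorem z_mem : z ∈ V ⊓ 𝐂(J) := have : z ∈ ⁅V, J⁆ := hz ▸ mem_zpowers z
  ⟨comm_V b.toTq this, b.quad this⟩

include e in
/-- The elements of `J ∖ E` act on `Z(E)` as transvections with centre `z`. -/
theorem zm (hy : y ∈ J ⊓ 𝐂(V) ⊓ 𝐂(J ⊓ 𝐂(V))) (h1 : y ∉ 𝐂(J)) (ht : t ∈ J) (h2 : t ∉ 𝐂(V)) :
    t * y * t⁻¹ = y * z := by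
  obtain ⟨v, hv, nv⟩ := SetLike.not_le_iff_exists.1 b.nc
  have c := mem_cent.1 (zc b b' n e hy ⟨b.toTq.le_E hv, cent_symm inf_le_right hv⟩ h1 nv) t ht
  have d : ⁅v, t⁆ = z := (pu_zp z2 (hz ▸ commutator_mem_commutator hv ht)).resolve_left fun k =>
    (b.ti v hv t ht (commutatorElement_eq_one_iff_mul_comm.1 k).symm).elim h2 nv
  calc _ = t * (y * v) * v⁻¹ * t⁻¹ := by group
    _ = _ := by rw [c, ← d, commutatorElement_def]; group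

variable (hJ : J ≤ N) (pJ : IsPGroup 2 J) (wk : Wk N J)
include hJ pJ wk

/-- `w = k z k⁻¹` centralizes `J` and `k ⋆ J`; they are conjugate in `N ⊓ 𝐍(E) ⊓ 𝐂[w]`. -/
theorem wc (hk : k ∈ N ⊓ 𝐍(J ⊓ 𝐂(V))) (h1 : k * z * k⁻¹ ∈ 𝐂(J)) : k * z * k⁻¹ = z := by
  haveI := Fact.mk Nat.prime_two
  have jN : J ≤ N ⊓ 𝐍(J ⊓ 𝐂(V)) := le_inf hJ b.toTq.norm_E
  obtain ⟨T, hT, l⟩ := Syl.exists_ge (M := N ⊓ 𝐍(J ⊓ 𝐂(V)) ⊓ 𝐂[k * z * k⁻¹]) pJ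
    (le_inf jN fun j hj => mem_cent1.2 (mem_cent.1 h1 j hj))
  obtain ⟨c, hc, l'⟩ := hT.exists_conj_le (isPGroup_conj pJ k) (le_inf (conj_le_of_mem jN hk)
    (conj_cent1 k z ▸ conj_mono k fun j hj => mem_cent1.2 (mem_cent.1 (z_mem b hz).2 j hj)))
  rw [conj_conj] at l'
  have := z_fix b b' n hz z1 z2 (norm_of_conj_eq (wk T (hT.le.trans (inf_le_left.trans inf_le_left)) hT.pgroup l _ l'))
    (mul_mem hc.1.2 hk.2)
  rwa [show c * k * z * (c * k)⁻¹ = c * (k * z * k⁻¹) * c⁻¹ by group, mem_cent1.1 hc.2, mul_inv_cancel_right] at this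

include e in
/-- The orbit of `z` under `N ⊓ 𝐍(E)` has three elements. -/
theorem orb (hg : g ∈ N) (zg : z ∉ 𝐂[g]) (hk : k ∈ N ⊓ 𝐍(J ⊓ 𝐂(V))) (h1 : k * z * k⁻¹ ≠ z) :
    k * z * k⁻¹ = g * z * g⁻¹ ∨ k * z * k⁻¹ = g * z * g⁻¹ * z := by
  have gN : g ∈ N ⊓ 𝐍(J ⊓ 𝐂(V)) := ⟨hg, b.norm_E⟩
  have zZ : z ∈ J ⊓ 𝐂(V) ⊓ 𝐂(J ⊓ 𝐂(V)) := ⟨b.toTq.le_E (z_mem b hz).1, cent_anti inf_le_left (z_mem b hz).2⟩
  have mZ : ∀ l ∈ N ⊓ 𝐍(J ⊓ 𝐂(V)), l * z * l⁻¹ ∈ J ⊓ 𝐂(V) ⊓ 𝐂(J ⊓ 𝐂(V)) := fun l hl =>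
    conj_mem_of_norm (norm_center le_rfl hl.2) zZ
  have w : ∀ l ∈ N ⊓ 𝐍(J ⊓ 𝐂(V)), g⁻¹ * l * z * (g⁻¹ * l)⁻¹ ∈ 𝐂(J) → l * z * l⁻¹ = g * z * g⁻¹ := fun l hl c => by
    have := wc b b' n hz z1 z2 hJ pJ wk (mul_mem (inv_mem gN) hl) c
    calc _ = g * (g⁻¹ * l * z * (g⁻¹ * l)⁻¹) * g⁻¹ := by group
      _ = _ := by rw [this]
  obtain ⟨t, ht, nt⟩ := SetLike.not_le_iff_exists.1 fun k : J ≤ 𝐂(V) => b.nc (le_centralizer_iff.1 k)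
  have c := zm b b' n e hz z1 z2 (mZ k hk) (mt (wc b b' n hz z1 z2 hJ pJ wk hk) h1) ht nt
  refine or_iff_not_imp_left.2 fun d => ?_
  have c1 := zc b b' n e (mZ _ (mul_mem (inv_mem gN) hk)) (mZ _ (mul_mem (inv_mem gN) (one_mem _))) (mt (w k hk) d)
    fun q => zg (mem_cent1.2 (by
      have := w 1 (one_mem _) q
      rw [one_mul, inv_one, mul_one, eq_mul_inv_iff_mul_eq] at this
      exact this))
  have := w (t * k) (mul_mem ⟨hJ ht, b.toTq.norm_E ht⟩ hk) (by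
    convert c1 using 1
    calc _ = g⁻¹ * (t * (k * z * k⁻¹) * t⁻¹) * g := by group
      _ = _ := by rw [c]; group)
  rw [← this, show t * k * z * (t * k)⁻¹ = t * (k * z * k⁻¹) * t⁻¹ by group, c, mul_assoc _ z z, z2, mul_one]

end two

/-- Suppose not, `w = g z g⁻¹`, `u = x w x⁻¹`. The set `Y` of the conjugates of `w` and `w z` under `A` is invariant
under `J`, and `u` moves only `w` and `w z`. -/
theorem c1_two (h : SN N A) (hJ : J ≤ N) (pJ : IsPGroup 2 J) (wk : Wk N J) (aJ : A ≤ 𝐍(J)) (b : Bq J V g)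
    (hg : g ∈ N) (hx : x ∈ A) (e : 𝐂(V).relIndex J = 2) : V ≤ 𝐂(x ⋆ V) := by
  by_contra n
  have b' := b.conj' (aJ hx)
  have n' : ¬ x ⋆ V ≤ 𝐂(V) := fun e => n (cent_symm e)
  obtain ⟨z, z1, z2, zg, hz⟩ := ex_z b e
  obtain ⟨zV, zJ⟩ := z_mem b hz
  have wz : g * z * g⁻¹ ≠ z := fun c => zg (mem_cent1.2 (mul_inv_eq_iff_eq_mul.1 c).symm)
  have wJ : g * z * g⁻¹ ∉ 𝐂(J) := mt (wc b b' n hz z1 z2 hJ pJ wk ⟨hg, b.norm_E⟩) wz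
  have wV : g * z * g⁻¹ ∈ V := conj_mem_of_norm (b.mem_norm le_rfl b.toTq.le_E) zV
  have ob := fun k => orb (k := k) b b' n e hz z1 z2 hJ pJ wk hg zg
  have ob' : ∀ a ∈ A, a ∈ 𝐍(J ⊓ 𝐂(V)) → a * z * a⁻¹ = z ∧
      (a * (g * z * g⁻¹) * a⁻¹ = g * z * g⁻¹ ∨ a * (g * z * g⁻¹) * a⁻¹ = g * z * g⁻¹ * z) := fun a ha k => by
    have f := z_fix b b' n hz z1 z2 (aJ ha) k
    have f' : a * (g * z * g⁻¹) * a⁻¹ = a * g * a⁻¹ * z * (a * g * a⁻¹)⁻¹ := by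
      conv_rhs => rw [← f]
      group
    refine ⟨f, f' ▸ ob _ ⟨conj_mem_of_norm (h.norm ha) hg, (mul_mem (mul_mem k b.norm_E) (inv_mem k) : _ ∈ 𝐍(J ⊓ 𝐂(V)))⟩ fun c => wz ?_⟩
    rw [← f'] at c
    simpa using c.trans f.symm
  generalize g * z * g⁻¹ = w at wz wJ wV ob'
  have zm' : ∀ t ∈ J, t ∉ 𝐂(V) → t * w * t⁻¹ = w * z := fun t =>
    zm b b' n e hz z1 z2 ⟨b.toTq.le_E wV, cent_symm inf_le_right wV⟩ wJ
  have jz : ∀ t ∈ J, t * (w * z) * t⁻¹ = t * w * t⁻¹ * z := fun t ht => by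
    rw [← mul_assoc, mul_assoc _ z, ← mem_cent.1 zJ _ (inv_mem ht), mul_assoc (t * w)]
  have zz : w * z * z = w := by rw [mul_assoc, z2, mul_one]
  have uV : x * w * x⁻¹ ∈ x ⋆ V := conj_mem_conj.2 wV
  have uC : x * w * x⁻¹ ∉ 𝐂(V) := fun c => wJ (by
    have := b.toTq.inf_le b'.toTq n ⟨uV, c⟩
    rwa [← conj_eq_of_norm (aJ hx), ← conj_centralizer, conj_mem_conj] at this)
  have := (h.sub hJ aJ).four (Y := {y | ∃ a ∈ A, y = a * w * a⁻¹ ∨ y = a * (w * z) * a⁻¹}) (fun j hj y hy => ?_)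
    (fun a ha y hy => ?_) (b'.le uV) (el_sq b'.el uV)
  · have u1 := zm' _ (b'.le uV) uC
    have u2 := jz _ (b'.le uV)
    rw [u1, zz] at u2
    generalize x * w * x⁻¹ = u at this uV u1 u2
    have wz1 : w ≠ w * z := fun c => z1 (left_eq_mul.1 c)
    rw [show {y ∈ {y | ∃ a ∈ A, y = a * w * a⁻¹ ∨ y = a * (w * z) * a⁻¹} | u * y ≠ y * u} = {w, w * z} from ?_,
      Set.ncard_pair wz1] at this
    · omega
    ext y
    refine ⟨fun ⟨⟨a, ha, c⟩, d⟩ => ?_, ?_⟩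
    · have ba := (b.conj' (aJ ha)).toTq
      have yV : y ∈ a ⋆ V := by
        rcases c with rfl | rfl
        exacts [conj_mem_conj.2 wV, conj_mem_conj.2 (mul_mem wV zV)]
      obtain ⟨f, f'⟩ := ob' a ha (norm_of_conj_eq ((conj_E (aJ ha)).trans (b'.side_eq ba b.toTq
        (fun k => d (mem_cent.1 (k uV) y yV).symm) n')))
      rcases c with rfl | rfl
      · exact f'
      rw [show a * (w * z) * a⁻¹ = a * w * a⁻¹ * (a * z * a⁻¹) by group, f]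
      exact f'.symm.imp (fun k => by rw [k, zz]) fun k => by rw [k]; rfl
    · rintro (rfl | rfl)
      · exact ⟨⟨1, one_mem _, .inl (by simp)⟩, fun c => wz1 (by rw [← u1, c, mul_inv_cancel_right])⟩
      · exact ⟨⟨1, one_mem _, .inr (by simp)⟩, fun c => wz1 (by rw [c, mul_inv_cancel_right] at u2; exact u2.symm)⟩
  · obtain ⟨a, ha, c⟩ := hy
    have m := conj_mem_of_norm' (aJ ha) hj
    have k : a⁻¹ * j * a * w * (a⁻¹ * j * a)⁻¹ = w ∨ a⁻¹ * j * a * w * (a⁻¹ * j * a)⁻¹ = w * z :=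
      (em _).imp (fun c => mul_inv_eq_iff_eq_mul.2 (mem_cent.1 c w wV).symm) (zm' _ m)
    have q : ∀ s : X, j * (a * s * a⁻¹) * j⁻¹ = a * (a⁻¹ * j * a * s * (a⁻¹ * j * a)⁻¹) * a⁻¹ := fun s => by group
    refine ⟨a, ha, ?_⟩
    rcases c with rfl | rfl <;> rw [q]
    · exact k.imp (fun c => by rw [c]) fun c => by rw [c]
    · exact k.symm.imp (fun c => by rw [jz _ m, c, zz]) fun c => by rw [jz _ m, c]
  · obtain ⟨a', ha', c⟩ := hy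
    exact ⟨a * a', mul_mem ha ha', c.imp (fun c => by rw [c]; group) fun c => by rw [c]; group⟩

/-- Suppose not. `tr` with `Z = ncl Z₁ A ≤ J ⊓ 𝐂(J)`. By `comm_cent` for the pairs `c ⋆ V`, `(c x) ⋆ V` (`c ∈ A`), the
groups `a ⋆ K` normalize `Z` and their commutators centralize `Z`. Each `c ⋆ Z₁` equals `Z₁` or is centralized by `K`
(`tri`, `near`, `cent_of_far`), so `Z ≤ Z₁ ⊔ Z ⊓ 𝐂(K)` and `t3` gives the transitivity. `t4`, `c1_two`. -/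
theorem c1 (h : SN N A) (hJ : J ≤ N) (pJ : IsPGroup 2 J) (aJ : A ≤ 𝐍(J)) (b : Bq J V g) (hs : Group.IsSolvable N)
    (t : Tor J V K) (hK : K ≤ N) (hx : x ∈ A) (two : 𝐂(V).relIndex J = 2 → V ≤ 𝐂(x ⋆ V)) : V ≤ 𝐂(x ⋆ V) := by
  by_contra n
  refine t.t4.elim (fun e => n (two e)) fun ⟨k, hk, y, hy, e⟩ => e ?_
  have ta : ∀ a ∈ A, Tor J (a ⋆ V) (a ⋆ K) := fun a ha => by
    have := t.conj a
    rwa [conj_eq_of_norm (aJ ha)] at this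
  have cz : ∀ c ∈ A, c ⋆ ⁅V, J⁆ = ⁅c ⋆ V, J⁆ := fun c hc => by rw [conj_commutator, conj_eq_of_norm (aJ hc)]
  have cc : ∀ c ∈ A, ∀ a ∈ A, a ⋆ K ≤ 𝐍(c ⋆ ⁅V, J⁆) ∧ ⁅a ⋆ K, K⁆ ≤ 𝐂(c ⋆ ⁅V, J⁆) := fun c hc a ha => by
    rw [cz c hc]
    exact comm_cent (b.conj' (aJ hc)) ((b.conj' (aJ hx)).conj' (aJ hc)) (c1_nc n c) (b.conj' (aJ ha)).toTq (ta a ha)
      b.toTq t (sol_of_le hs (sup_le (conj_le_of_norm hK (h.norm ha)) hK))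
  have zY : ncl ⁅V, J⁆ A ≤ J ⊓ 𝐂(J) := ncl_le (le_inf (comm_le_of_le b.le le_rfl) b.quad) (norm_center aJ)
  have ab := abelian_of_le (abelian_center J) zY
  have kZ : ∀ a ∈ A, a ⋆ K ≤ 𝐍(ncl ⁅V, J⁆ A) := fun a ha m hm => mem_normalizer_of_conj_le
    (conj_le_iff_le_inv_conj.2 (ncl_le_iff.2 fun c hc => conj_le_iff_le_inv_conj.1 (by
      rw [conj_eq_of_norm ((cc c hc a ha).1 hm)]; exact conj_le_ncl _ hc)))
  have kZ1 : K ≤ 𝐍(ncl ⁅V, J⁆ A) := by simpa only [conj_one] using kZ 1 (one_mem A)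
  have zz : ncl ⁅V, J⁆ A ≤ ⁅V, J⁆ ⊔ ncl ⁅V, J⁆ A ⊓ 𝐂(K) := ncl_le_iff.2 fun c hc => by
    rcases c1_or (b.conj' (aJ hc)) ((b.conj' (aJ hx)).conj' (aJ hc)) (c1_nc n c) b.toTq t with d | ⟨d, -⟩
    · exact (le_inf (conj_le_ncl _ hc) (cent_symm (by rwa [cz c hc]))).trans le_sup_right
    · rw [cz c hc, ← d]; exact le_sup_left
  have nz : ⁅V, J⁆ ≤ 𝐍(ncl ⁅V, J⁆ A ⊓ 𝐂(K)) := (le_ncl _ A).trans (abelian_norm ab inf_le_left)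
  refine tr h (pJ.to_le (zY.trans inf_le_left)) ((zY.trans inf_le_left).trans hJ) hK ab (norm_ncl _ A) kZ1 (fun a ha m hm => ?_)
    (fun y hy z hz y1 z1 => ?_) k hk y (le_ncl _ A hy)
  · refine mem_normalizer_of_conj_le (conj_le_iff.2 fun z hz => ⟨conj_mem_of_norm (kZ a ha hm) hz.1,
      mem_cent.2 fun l hl => ?_⟩)
    have h1 : ⁅m⁻¹, l⁆ ∈ 𝐂(ncl ⁅V, J⁆ A) := cent_symm (ncl_le_iff.2 fun c hc => cent_symm (cc c hc a ha).2)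
      (commutator_mem_commutator (inv_mem hm) hl)
    have h2 := mem_cent.1 h1 z hz.1
    have h3 := mem_cent.1 hz.2 l hl
    calc l * (m * z * m⁻¹) = m * (⁅m⁻¹, l⁆ * (l * z)) * m⁻¹ := by rw [commutatorElement_def]; group
      _ = m * (z * ⁅m⁻¹, l⁆ * l) * m⁻¹ := by rw [h3, h2]; group
      _ = _ := by rw [commutatorElement_def]; group
  · obtain ⟨y₁, a1, y₂, a2, rfl⟩ := (mem_sup_right_norm nz).1 (zz hy)
    obtain ⟨z₁, c1, z₂, c2, rfl⟩ := (mem_sup_right_norm nz).1 (zz hz)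
    obtain ⟨l, hl, d⟩ := t.t3 y₁ a1 z₁ c1 (fun c => y1 (mul_mem c a2.2)) fun c => z1 (mul_mem c c2.2)
    refine ⟨l, hl, ?_⟩
    have := mul_mem (mul_mem (inv_mem (conj_mem_of_norm (norm_cent (le_norm K) hl) a2.2)) d) c2.2
    convert this using 1; group

end Cfsg.Lib.AN
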