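import Cfsg.Agent.Lib.FH.A

/-!
# Self-normalizing operator groups that have the property of Glauberman's lemma (S4803)
-/

set_option autoImplicit false

namespace Cfsg.Lib.AN

open Subgroup Cfsg.Lib.BG Cfsg.Lib.Transfer Cfsg.Lib.FH

variable {G : Type*} [Group G] {N F M D S T Γ : Subgroup G} {p : ℕ} {g : G}

/-- `F` normalizes `N`, is self-normalizing in `N F`, and every supplement of an invariant subgroup `D` of `N` in
`D F` contains a `D`-conjugate of `F`. -/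
structure SN (N F : Subgroup G) : Prop where
  norm : F ≤ 𝐍(N)
  sn : N ⊓ 𝐍(F) ≤ F
  gl : ∀ D ≤ N, F ≤ 𝐍(D) → ∀ Γ : Subgroup G, D ⊔ Γ = D ⊔ F → ∃ d ∈ D, F ≤ d ⋆ Γ

theorem SN.sub (h : SN N F) (hM : M ≤ N) (hF : F ≤ 𝐍(M)) : SN M F :=
  ⟨hF, (inf_le_inf_right _ hM).trans h.sn, fun D a => h.gl D (a.trans hM)⟩

theorem SN.conj' (h : SN N F) (g : G) : SN (g ⋆ N) (g ⋆ F) := by
  refine ⟨map_norm _ h.norm, ?_, fun D a b Γ e => ?_⟩
  · rw [← conj_normalizer, ← conj_inf]; exact conj_mono g h.sn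
  obtain ⟨d, hd, l⟩ := h.gl (g⁻¹ ⋆ D) (conj_le_iff_le_inv_conj.2 (by rwa [inv_inv]))
    (by rw [← conj_normalizer]; exact conj_le_iff_le_inv_conj.1 b) (g⁻¹ ⋆ Γ)
    (by rw [← conj_sup, e, conj_sup, inv_conj_conj])
  refine ⟨g * d * g⁻¹, conj_inv_conj g D ▸ conj_mem_conj.2 hd, ?_⟩
  have := conj_mono g l
  rwa [conj_conj (H := Γ), conj_conj (H := Γ), ← mul_assoc] at this

theorem SN.conj (h : SN N F) (hg : g ∈ 𝐍(N)) : SN N (g ⋆ F) := by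
  have := h.conj' g
  rwa [conj_eq_of_norm hg] at this

variable [Finite G]

theorem SN.frat (h : SN N F) (hM : M ≤ N) (hF : F ≤ 𝐍(M)) (h1 : g ∈ 𝐍(M)) (h2 : g ∈ 𝐍(M ⊔ F)) :
    ∃ m ∈ M, m * g ∈ 𝐍(F) := by
  obtain ⟨m, hm, e⟩ := h.gl M hM hF (g ⋆ F) (by rw [← conj_eq_of_norm h2, conj_sup, conj_eq_of_norm h1])
  rw [conj_conj] at e
  exact ⟨m, hm, norm_of_conj_eq (eq_of_le_of_card_le e (card_conj _ _).le).symm⟩

/-- `M F` is self-normalizing in `N`. -/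
theorem SN.mem (h : SN N F) (hM : M ≤ N) (hF : F ≤ 𝐍(M)) (h0 : g ∈ N) (h1 : g ∈ 𝐍(M)) (h2 : g ∈ 𝐍(M ⊔ F)) :
    ∃ m ∈ M, m * g ∈ F :=
  let ⟨m, hm, e⟩ := h.frat hM hF h1 h2
  ⟨m, hm, h.sn ⟨mul_mem (hM hm) h0, e⟩⟩

theorem SN.quo (h : SN N F) (hM : Nml M N) (hF : F ≤ 𝐍(M)) : SN (quo N M) (quo F M) := by
  refine ⟨quo_norm h.norm M, ?_, fun D a b Γ e => ?_⟩
  · rintro _ ⟨⟨x, hx, rfl⟩, hc⟩
    have h1 : (x : G) ∈ 𝐍(M ⊔ F) := norm_of_conj_eq (by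
      rw [conj_sup, conj_eq_of_norm x.2]
      refine supp_of_quo_eq ?_ hF ?_
      · exact conj_le_of_mem hF x.2
      · rw [quo_cj x.2, conj_eq_of_norm hc])
    obtain ⟨m, hm, e⟩ := h.mem hM.le hF hx x.2 h1
    refine ⟨⟨m * x, mul_mem (le_norm M hm) x.2⟩, e, QuotientGroup.eq.2 ?_⟩
    change (m * x)⁻¹ * x ∈ M
    have := conj_mem_of_norm' x.2 (inv_mem hm)
    rwa [mul_inv_rev]
  have m := le_copre (N := M) D
  obtain ⟨d, hd, l⟩ := h.gl (copre M D) (copre_le_of_le_quo hM a) (norm_copre hF b) (copre M Γ) (by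
    rw [← copre_sup, e, copre_sup, copre_quo hF, ← sup_assoc, sup_eq_left.2 m])
  obtain ⟨n, hn⟩ := mem_copre.1 hd
  refine ⟨_, hn, ?_⟩
  have := quo_mono l M
  rwa [quo_cj n, quo_copre] at this

/-- A normal subgroup of `N F` that supplements `N` is everything. -/
theorem SN.le_of_nml (h : SN N F) (h1 : N ⊔ F ≤ 𝐍(Γ)) (e : N ⊔ Γ = N ⊔ F) : N ≤ Γ := fun x hx => by
  obtain ⟨d, hd, l⟩ := h.gl N le_rfl h.norm Γ e
  rw [conj_eq_of_norm (h1 (mem_sup_left hd))] at l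
  have e1 : N ⊓ Γ ⊔ F = Γ := le_antisymm (sup_le inf_le_right l) fun y hy => by
    obtain ⟨n, hn, a, ha, rfl⟩ := (mem_sup_left_norm h.norm).1 (e ▸ mem_sup_right hy : y ∈ N ⊔ F)
    exact mul_mem (mem_sup_left ⟨hn, (mul_mem_cancel_right (l ha)).1 hy⟩) (mem_sup_right ha)
  obtain ⟨m, hm, k⟩ := h.mem inf_le_left (norm_inf h.norm (le_sup_right.trans h1)) hx
    (norm_inf (le_norm N) (le_sup_left.trans h1) hx) (by rw [e1]; exact h1 (mem_sup_left hx))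
  exact (mul_mem_cancel_left (show m ∈ Γ from hm.2)).1 (l k)

/-- An involution of `N` acts as an even permutation on an invariant set. -/
theorem SN.four (h : SN N F) {Y : Set G} (h1 : ∀ x ∈ N, ∀ y ∈ Y, x * y * x⁻¹ ∈ Y)
    (h2 : ∀ x ∈ F, ∀ y ∈ Y, x * y * x⁻¹ ∈ Y) (hg : g ∈ N) (g2 : g * g = 1) :
    4 ∣ {y ∈ Y | g * y ≠ y * g}.ncard := by
  classical
  let St : Subgroup G :=
    { carrier := {x | ∀ y, y ∈ Y ↔ x * y * x⁻¹ ∈ Y}
      one_mem' := fun y => by simp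
      mul_mem' := fun {a b} ha hb y => by
        rw [hb y, ha, show a * (b * y * b⁻¹) * a⁻¹ = a * b * y * (a * b)⁻¹ by group]
      inv_mem' := fun {a} ha y => by rw [ha (a⁻¹ * y * a⁻¹⁻¹), show a * (a⁻¹ * y * a⁻¹⁻¹) * a⁻¹ = y by group] }
  have st : ∀ K : Subgroup G, (∀ x ∈ K, ∀ y ∈ Y, x * y * x⁻¹ ∈ Y) → K ≤ St := fun K k x hx y =>
    ⟨k x hx y, fun c => by simpa [mul_assoc] using k _ (inv_mem hx) _ c⟩
  have le : N ⊔ F ≤ St := sup_le (st N h1) (st F h2)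
  haveI := Fintype.ofFinite Y
  let ρ : St →* Equiv.Perm Y :=
    { toFun := fun x => Equiv.Perm.subtypePerm (MulAut.conj (x : G)).toEquiv fun y => (x.2 y).symm
      map_one' := Equiv.ext fun y => Subtype.ext (by simp)
      map_mul' := fun a b => Equiv.ext fun y => Subtype.ext (by
        change (a * b : G) * y * (a * b : G)⁻¹ = a * (b * y * (b : G)⁻¹) * (a : G)⁻¹
        group) }
  let σ := Equiv.Perm.sign.comp ρ
  have gS := le (mem_sup_left hg)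
  have s1 : Equiv.Perm.sign (ρ ⟨g, gS⟩) = 1 := by
    by_contra c
    have n : St ≤ 𝐍(σ.ker.map St.subtype) := (Nml.of_normal St σ.ker).norm
    have := h.le_of_nml (Γ := (N ⊔ F) ⊓ σ.ker.map St.subtype) (norm_inf (le_norm _) (le.trans n))
      (le_antisymm (sup_le le_sup_left inf_le_left) (sup_le le_sup_left fun a ha => ?_)) hg
    · obtain ⟨y, hy, e⟩ := this.2
      exact c ((Subtype.ext e : y = ⟨g, gS⟩) ▸ hy : (⟨g, gS⟩ : St) ∈ σ.ker)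
    have aS := le (mem_sup_right ha)
    by_cases k : σ ⟨a, aS⟩ = 1
    · exact mem_sup_right ⟨mem_sup_right ha, _, k, rfl⟩
    refine (mul_mem_cancel_left (mem_sup_left hg)).1 (mem_sup_right ⟨mul_mem (mem_sup_left hg) (mem_sup_right ha),
      ⟨g, gS⟩ * ⟨a, aS⟩, ?_, rfl⟩)
    change σ _ = 1
    rw [map_mul, (Int.units_eq_one_or _).resolve_left k, (Int.units_eq_one_or (σ ⟨g, gS⟩)).resolve_left c]
    simp
  have s2 : ρ ⟨g, gS⟩ ^ 2 = 1 := by rw [← map_pow, pow_two, ← map_one ρ]; exact congrArg ρ (Subtype.ext g2)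
  have s3 : {y ∈ Y | g * y ≠ y * g}.ncard = (ρ ⟨g, gS⟩).support.card := by
    rw [← Set.ncard_coe_finset, ← Set.ncard_image_of_injective _ Subtype.val_injective]
    congr 1
    ext y
    simp only [Set.mem_setOf_eq, Set.mem_image, Finset.mem_coe, Equiv.Perm.mem_support]
    refine ⟨fun ⟨a, b⟩ => ⟨⟨y, a⟩, fun c => b (mul_inv_eq_iff_eq_mul.1 (congrArg Subtype.val c)), rfl⟩, ?_⟩
    rintro ⟨y, b, rfl⟩
    exact ⟨y.2, fun c => b (Subtype.ext (mul_inv_eq_iff_eq_mul.2 c))⟩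
  obtain ⟨k, hk⟩ := Equiv.Perm.two_dvd_card_support s2
  rw [Equiv.Perm.sign_of_pow_two_eq_one s2, Equiv.Perm.card_fixedPoints,
    Nat.sub_sub_self (Equiv.Perm.sum_cycleType_le _), Equiv.Perm.sum_cycleType, hk,
    Nat.mul_div_cancel_left _ two_pos, neg_one_pow_eq_one_iff_even (by decide)] at s1
  rw [s3, hk]
  exact Nat.mul_dvd_mul_left 2 s1.two_dvd

variable [Fact p.Prime]

variable (p) in
theorem SN.syl (h : SN N F) : ∃ S, Syl p S N ∧ F ≤ 𝐍(S) := by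
  obtain ⟨D, hD⟩ := Syl.exists p N
  obtain ⟨m, hm, l⟩ := h.gl N le_rfl h.norm _ (hD.frattini ⟨le_sup_left, sup_le_norm_left h.norm⟩)
  refine ⟨m ⋆ D, hD.conj_of_mem hm, l.trans ?_⟩
  rw [← conj_normalizer]
  exact conj_mono m inf_le_right

theorem SN.syl_uniq (h : SN N F) (hS : Syl p S N) (hT : Syl p T N) (h1 : F ≤ 𝐍(S)) (h2 : F ≤ 𝐍(T)) : S = T := by
  obtain ⟨n, hn, rfl⟩ := hT.exists_conj_eq hS
  obtain ⟨m, hm, e⟩ := h.gl _ inf_le_left (norm_inf h.norm (norm_norm h1)) (n ⋆ F)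
    (supp_restrict h.norm (supp_conj rfl hn) (map_norm _ h2) h1)
  rw [conj_conj] at e
  have h3 : m * n ∈ F :=
    h.sn ⟨mul_mem hm.1 hn, norm_of_conj_eq (eq_of_le_of_card_le e (card_conj _ _).le).symm⟩
  have h4 := conj_eq_of_norm hm.2
  rw [conj_conj, conj_eq_of_norm (h2 h3)] at h4
  exact h4.symm

end Cfsg.Lib.AN
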