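import Cfsg.Agent.Lib.AN.TF

/-!
# The amalgam step: `W ≤ O₂(H)`
-/

set_option autoImplicit false
set_option linter.unusedSectionVars false

namespace Cfsg.Lib.AN

open Subgroup Cfsg.Lib.BG Cfsg.Lib.Transfer Cfsg.Lib.Loc Cfsg.Lib.PLocal Cfsg.Lib.FH Cfsg.Lib.FQ Cfsg.Lib.S4F
open Cfsg.Lib.NF (refl Dh exists_dh)
open scoped commutatorElement

variable {X : Type*} [Group X] {A H K S W : Subgroup X} {a x : X}

/-- The setting of the amalgam step. -/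
structure Am (H A S W : Subgroup X) : Prop where
  fp : SN H A
  sol : Group.IsSolvable H
  syl : Syl 2 S H
  aS : A ≤ 𝐍(S)
  ch : H ⊓ 𝐂(𝐎({2}, H)) ≤ 𝐎({2}, H)
  el : IsElementaryAbelian 2 W
  le : W ≤ S
  sW : S ≤ 𝐍(W)
  aW : A ≤ 𝐍(W)
  mx : ∀ B ∈ maxIn 2 S, W ≤ B
  nJ : H ⊓ 𝐍(𝐉 S) ≤ 𝐍(W)
  q2 : Q2 S W

variable [Finite X]

/-- `𝐎({2}, H) ≤ S ≤ K` gives `𝐎({2}, H) ≤ 𝐎({2}, K)`. -/
theorem Am.sub (h : Am H A S W) (h1 : S ≤ K) (h2 : K ≤ H) (aK : A ≤ 𝐍(K)) : Am K A S W := by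
  have h3 := pcore_le_of_le (h.syl.pcore_le.trans h1) h2
  exact ⟨h.fp.sub h2 aK, sol_of_le h.sol h2, h.syl.of_le h1 h2, h.aS,
    ((inf_le_inf h2 (cent_anti h3)).trans h.ch).trans h3, h.el, h.le, h.sW, h.aW, h.mx,
    (inf_le_inf_right _ h2).trans h.nJ, h.q2⟩

theorem sa_rel {E B Z Y : Subgroup X} (h : B ≤ 𝐍(E)) (h1 : Z ⊓ B ≤ E) (h2 : B ≤ Y) :
    E.relIndex (E ⊔ B) ≤ Z.relIndex Y := by
  rw [← card_quo (sup_le_norm_left h), quo_sup_self h, card_quo h]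
  refine (relIndex_le_of_le_left h1 index_ne_zero_of_finite).trans ?_
  rw [inf_relIndex_right]
  exact relIndex_le_of_le_right h2 index_ne_zero_of_finite

omit [Finite X] in
theorem sa_cm {Y B C : Subgroup X} (hB : B ≤ 𝐍(Y)) (h : ∀ b ∈ B, x ∈ cm Y b) (hC : C = zpowers x) : ⁅B, C⁆ ≤ Y :=
  commutator_le.2 fun b hb _ hy => (cm_symm (zpowers_le.2 (h b hb) (hC ▸ hy)) (hB hb)).2

/-- `Q = 𝐎({2}, H)`, `W₁ = W ⊓ cm Q x` (index 2 in `W`), `R = x ⋆ W₁ ≤ Q ⊔ W₁ ≤ S`, `Z₀ = W ⊓ x ⋆ W`. Every subgroup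
containing `W` and `x ⋆ W` contains `x` (`Dh.mem`); so `x ∈ 𝐂(Z₀)`, `Z₀ ≤ W₁ ⊓ R`, and `R ⊓ 𝐂(W)` centralizes `W` and
`x ⋆ W`, hence `x`, and lies in `Z₀`. So `|W : C_W(R)| ≤ |W : Z₀| = 2 |W₁ : Z₀| = 2 |R : C_R(W)|` and `q2` gives
`|W₁ : Z₀| = |R : Z₀| ≤ 2`. Put `Φ = ` the Frattini subgroup of `Q` and `D = (W ⊓ Q) ⊔ (x ⋆ W ⊓ Q) ⊔ Φ`, normal in `Q`.
`⁅Q, W⁆ ≤ W ⊓ Q` and `⁅Q, x ⋆ W⁆ ≤ x ⋆ W ⊓ Q`, so `W` and `x ⋆ W` normalize `D` and centralize `Q / D`, and so does `x`.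
`(Z₀ ⊓ Q) ⊔ Φ` has index at most 4 in `D` and is centralized by `x` modulo `Φ`, while `⁅Q, ⟨x⟩⁆ ⊓ cm Φ x ≤ Φ` by
coprime action on `Q / Φ`. So `core` gives `⁅Q, ⟨x⟩⁆ ≤ Φ`, `x ∈ 𝐂(Q) ≤ Q` (Burnside), against `Dh.na`. -/
theorem Am.not_dh (h : Am H A S W) (hx : x ∈ H) (d : Dh 𝐎({2}, H) W a x) : False := by
  have := Fact.mk Nat.prime_two
  have hQ := pcore_nml {2} H
  have pQ := pcore_pgroup 2 H
  have QS := h.syl.pcore_le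
  have ch := h.ch
  have aQ := norm_pcore h.fp.norm {2}
  generalize 𝐎({2}, H) = Q at *
  have WH := h.le.trans h.syl.le
  have WH' : x ⋆ W ≤ H := conj_le_of_mem WH hx
  have xm : ∀ {K}, W ≤ K → x ⋆ W ≤ K → x ∈ K := fun h1 h2 =>
    d.mem (h.el.2 a d.aB) (h1 d.aB) (h2 (conj_mem_conj.2 d.aB))
  have WW := abelian_cent h.el.1
  have WW' := abelian_cent ((abelian_conj x).2 h.el.1)
  have R1 : x ⋆ (W ⊓ cm Q x) ≤ x ⋆ W := conj_mono x inf_le_left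
  have RS : x ⋆ (W ⊓ cm Q x) ≤ S := conj_le_iff.2 fun w hw => by
    rw [show x * w * x⁻¹ = ⁅w, x⁆⁻¹ * w by simp [commutatorElement_def, mul_assoc]]
    exact mul_mem (inv_mem (QS hw.2.2)) (h.le hw.1)
  have xZ : x ∈ 𝐂(W ⊓ x ⋆ W) := xm (cent_mono WW le_rfl inf_le_left) (cent_mono WW' le_rfl inf_le_right)
  have Z1 : W ⊓ x ⋆ W ≤ W ⊓ cm Q x := fun _ hz =>
    ⟨hz.1, mem_cm_of_cent (hQ.norm (WH hz.1)) (le_cent1_iff.2 xZ hz)⟩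
  have e1 : (W ⊓ x ⋆ W).relIndex (x ⋆ (W ⊓ cm Q x)) = (W ⊓ x ⋆ W).relIndex (W ⊓ cm Q x) := by
    rw [← relIndex_conj x _ (W ⊓ cm Q x), conj_eq_of_cent xZ]
  have e2 : 𝐂(W).relIndex (x ⋆ (W ⊓ cm Q x)) = (W ⊓ x ⋆ W).relIndex (W ⊓ cm Q x) := by
    rw [← e1, ← inf_relIndex_right, ← inf_relIndex_right (W ⊓ x ⋆ W)]
    congr 1
    refine le_antisymm (fun y hy => ⟨⟨?_, R1 hy.2⟩, hy.2⟩) (inf_le_inf_right _ (inf_le_left.trans WW))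
    have h1 := mem_cent1.1 (xm (le_cent1_iff.2 hy.1) (le_cent1_iff.2 (WW' (R1 hy.2))))
    have h2 := (mem_conj.1 hy.2).1
    rwa [mul_assoc, ← h1, inv_mul_cancel_left] at h2
  have e3 : (W ⊓ x ⋆ W).relIndex (W ⊓ cm Q x) ≤ 2 := by
    rcases h.q2 _ RS (fun y hy => by
      obtain ⟨w, hw, rfl⟩ := R1 hy
      rw [← map_pow, h.el.2 w hw, map_one]; exact one_mem _) (by
      rw [e2, ← d.idx, ← inf_relIndex_left W (cm Q x), mul_comm, relIndex_mul_relIndex _ _ _ Z1 inf_le_left]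
      exact relIndex_le_of_le_left (cent_mono WW' inf_le_right R1) index_ne_zero_of_finite) with h1 | h1
    · rw [← e2, relIndex_eq_one.2 h1]; decide
    · rw [← e2, h1.1]
  have cΦ := PGroup.commutator_le_map_subtype_frattini pQ
  have nΦ := hQ.Phi
  have ΦQ := Phi_le Q
  have nq : ∀ {B C : Subgroup X}, 𝚽(Q) ≤ B → B ≤ Q → C ≤ Q → C ≤ 𝐍(B) := fun h1 h2 h3 =>
    h3.trans (norm_of_comm_le_of_le (cΦ.trans h1) h2)
  have DQ : 𝚽(Q) ⊔ W ⊓ Q ⊔ x ⋆ W ⊓ Q ≤ Q := sup_le (sup_le ΦQ inf_le_right) inf_le_right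
  have key : ∀ {B : Subgroup X}, B ≤ H → Q ≤ 𝐍(B) → B ⊓ Q ≤ 𝚽(Q) ⊔ W ⊓ Q ⊔ x ⋆ W ⊓ Q → ∀ q ∈ Q,
      B ≤ cm (𝚽(Q) ⊔ W ⊓ Q ⊔ x ⋆ W ⊓ Q) q := fun h1 h2 h3 q hq b hb => by
    have h4 := (le_inf (comm_le_right h2) (comm_le_left (h1.trans hQ.norm))).trans h3
    exact cm_symm ⟨nq (le_sup_left.trans le_sup_left) DQ le_rfl hq, h4 (commutator_mem_commutator hq hb)⟩
      (norm_of_comm_le_of_le h4 DQ hb)
  have QW := QS.trans h.sW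
  have QW' : Q ≤ 𝐍(x ⋆ W) := by
    rw [← conj_normalizer, ← conj_eq_of_norm d.xQ]; exact conj_mono x QW
  have UD := sa_cm (nq (le_sup_left.trans le_sup_left) DQ le_rfl) (fun q hq =>
    xm (key WH QW (le_sup_right.trans le_sup_left) q hq) (key WH' QW' le_sup_right q hq)) rfl
  have xQ := zpowers_le.2 d.xQ
  have xΦ := zpowers_le.2 (nΦ.norm hx)
  have QΦ := hQ.le.trans nΦ.norm
  have co : (Nat.card (zpowers x)).Coprime 2 := by rw [Nat.card_zpowers]; exact Nat.coprime_two_right.2 d.odd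
  have U0 : ⁅Q, zpowers x⁆ ⊓ cm 𝚽(Q) x ≤ 𝚽(Q) := by
    have h1 := (UD.trans DQ).trans QΦ
    obtain ⟨k, hk⟩ := IsPGroup.iff_card.1 pQ
    rw [← quo_eq_bot_iff (inf_le_left.trans h1), eq_bot_iff, ← (coprime_abelian_cent_dprod (quo_norm xQ 𝚽(Q))
      (coprime_quo (hk ▸ co.pow_right k) _) ((quo_abelian_iff QΦ).2 cΦ)).inf, ← quo_comm QΦ xΦ]
    exact le_inf (quo_mono inf_le_left _) (le_inf (quo_mono (inf_le_left.trans (UD.trans DQ)) _)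
      ((quo_le_cent_iff (inf_le_left.trans h1) xΦ).2 (sa_cm (inf_le_left.trans h1)
        (fun b hb => cm_symm hb.2 (nΦ.norm hx)) rfl)))
  have EQ : 𝚽(Q) ⊔ W ⊓ x ⋆ W ⊓ Q ≤ Q := sup_le ΦQ inf_le_right
  have i1 := sa_rel (Z := W ⊓ x ⋆ W) (Y := W ⊓ cm Q x) (nq le_sup_left EQ (inf_le_right (a := W)))
    ((inf_le_inf_left _ inf_le_right).trans le_sup_right) (inf_le_inf_left _ (le_cm d.xQ))
  have i2 := sa_rel (Z := W ⊓ x ⋆ W) (Y := x ⋆ (W ⊓ cm Q x))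
    (nq le_sup_left (sup_le ΦQ (inf_le_right (a := W))) (inf_le_right (a := x ⋆ W)))
    ((inf_le_inf inf_le_left inf_le_right).trans le_sup_right) (by
      have := conj_mono x (inf_le_inf_left W (le_cm d.xQ))
      rwa [conj_inf x W Q, conj_eq_of_norm d.xQ] at this)
  rw [sup_assoc, sup_eq_right.2 (inf_le_inf_right Q inf_le_left)] at i1
  have i3 : 𝚽(Q).relIndex ⁅Q, zpowers x⁆ ≤ 4 := by
    have h2 : 𝚽(Q) ⊔ W ⊓ x ⋆ W ⊓ Q ≤ cm 𝚽(Q) x :=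
      sup_le (le_cm (nΦ.norm hx)) fun z hz => mem_cm_of_cent (QΦ hz.2) (le_cent1_iff.2 xZ hz.1)
    have h1 : (𝚽(Q) ⊔ W ⊓ x ⋆ W ⊓ Q) ⊓ ⁅Q, zpowers x⁆ ≤ 𝚽(Q) := fun y hy => U0 ⟨hy.2, h2 hy.1⟩
    calc _ = (𝚽(Q) ⊔ W ⊓ x ⋆ W ⊓ Q).relIndex ⁅Q, zpowers x⁆ := by
          rw [← inf_relIndex_right, ← inf_relIndex_right (_ ⊔ _),
            le_antisymm (inf_le_inf_right _ le_sup_left) (le_inf h1 inf_le_right)]
      _ ≤ _ := relIndex_le_of_le_right UD index_ne_zero_of_finite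
      _ ≤ 2 * 2 := by
          rw [← relIndex_mul_relIndex _ _ _ (sup_le_sup_left (inf_le_inf_right Q inf_le_left) _) le_sup_left]
          exact Nat.mul_le_mul (i1.trans e3) (i2.trans (e1 ▸ e3))
  have h1 := coprime_cent_Phi xQ co pQ (core h.fp hQ nΦ ΦQ aQ (norm_Phi aQ)
    (fun v hv => PGroup.pow_mem_map_subtype_frattini pQ hv) hx d.odd i3)
  exact d.na (cm_symm (le_cm (hQ.norm (WH d.aB)) (ch ⟨hx, h1 (mem_zpowers x)⟩)) (hQ.norm (WH d.aB)))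

/-- Otherwise `exists_dh` applies with `R₀ = Q`, `R` the preimage of `𝐎({2}ᶜ, H / Q)`, which contains the Fitting
subgroup of `H / Q` and hence its own centralizer. -/
theorem Am.le_core (h : Am H A S W) : W ≤ 𝐎({2}, H) := by
  have := Fact.mk Nat.prime_two
  have hQ := pcore_nml {2} H
  have WH := h.le.trans h.syl.le
  have hR := hQ.copre (pcore_nml {2}ᶜ (quo H 𝐎({2}, H)))
  by_contra h0
  obtain ⟨a, x, hx, -, d⟩ := exists_dh (pcore_pgroup 2 H) h.el le_rfl (Nml.copre_self _) (copre_le_norm _)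
    (WH.trans hQ.norm) (WH.trans hR.norm) (WH.trans hQ.norm)
    (by rw [relIndex_copre]; exact PiGrp.p'_iff.1 (pcore_pi _ _)) fun e => h0 (by
      have hF : 𝐅(quo H 𝐎({2}, H)) ≤ 𝐎({2}ᶜ, quo H 𝐎({2}, H)) := by
        have h1 := (nil_pcore_dprod (Fitting_nil (quo H 𝐎({2}, H))) {2}).sup
        rw [pcore_Fitting, pcore_quo_pcore, bot_sup_eq] at h1
        exact h1.ge.trans ((Fitting_nml _).pcore_le _)
      have h1 := (quo_le_cent_iff (copre_le_norm _) (WH.trans hQ.norm)).2 e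
      rw [quo_copre] at h1
      rw [← quo_eq_bot_iff (WH.trans hQ.norm)]
      exact (PiGrp.of_pgroup (π := {2}) (pgroup_quo (elab_pgroup h.el) _) rfl).eq_bot ((pcore_pi _ _).of_le
        (((le_inf (quo_mono WH _) (cent_mono (cent_symm h1) le_rfl hF)).trans
          (cent_sub_Fitting (sol_quo h.sol _))).trans hF)))
  exact h.not_dh (hR.le hx) d

end Cfsg.Lib.AN
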