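import Cfsg.Agent.Lib.NF.End

/-!
# Control of strong fusion: two swapped sides give an odd permutation
-/

set_option autoImplicit false
set_option linter.unusedSectionVars false

namespace Cfsg.Lib.AN

open Subgroup Cfsg.Lib.BG Cfsg.Lib.Transfer Cfsg.Lib.Loc Cfsg.Lib.PLocal Cfsg.Lib.CGT Cfsg.Lib.PU Cfsg.Lib.FQ
open Cfsg.Lib.NF (im tw_pw end_im_mul)
open scoped commutatorElement

variable {G : Type*} [Group G] [Finite G] {A J N P S T : Subgroup G} {F : G → G → Prop} {a g u z : G}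

/-- `u` moves only the two elements of order four that are attached to `z`. -/
theorem pw_four (h : Pw S F) (e : F z u) : ¬ 4 ∣ {y ∈ {c | ∃ s, Cz F s c} | u * y ≠ y * u}.ncard := by
  obtain ⟨w, k, c, -⟩ := h.nb _ _ e
  obtain ⟨-, -, z2, u2, z1, zu⟩ := h.mem _ _ e
  have c1 : Cz F z (u * w) := ⟨u, w, e, k, c, rfl⟩
  have c2 : w * u = u * w * z := by
    rw [mul_assoc, ← (h.mem _ _ k).2.2.2.2.2, ← mul_assoc, ← h.nbc e c, inv_mul_cancel_right]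
  have c3 : Cz F z (u * w * z) := ⟨w, u, k, e, by rw [← commutatorElement_inv, c, pu_inv z2], c2.symm⟩
  have c4 : u * (u * w) ≠ u * w * u := fun d => z1 (by
    rw [mul_assoc, mul_right_inj, c2] at d
    exact left_eq_mul.1 d)
  rw [show {y ∈ {c | ∃ s, Cz F s c} | u * y ≠ y * u} = {u * w, u * w * z} from ?_,
    Set.ncard_pair fun d => z1 (left_eq_mul.1 d)]
  · omega
  ext y
  refine ⟨fun ⟨⟨s, d⟩, n⟩ => ?_, ?_⟩
  · by_cases q : z = s
    · exact h.cz_eq c1 (q ▸ d)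
    · exact absurd (h.l3c q (let ⟨_, _, f, _⟩ := d; h.l4 e f) e d) n
  · rintro (rfl | rfl)
    · exact ⟨⟨z, c1⟩, c4⟩
    · exact ⟨⟨z, c3⟩, fun d => c4 (by rwa [mul_assoc _ z, zu, ← mul_assoc, ← mul_assoc _ u z, mul_left_inj] at d)⟩

theorem tw_four (h : Tw J A T P N g a) (hS : IsPGroup 2 S) (h1 : T ≤ S) (h2 : a ∈ S)
    (four : ∀ Y : Set G, (∀ α : MulAut G, im α S = S → ∀ y ∈ Y, α y ∈ Y) → ∀ u ∈ S, u * u = 1 →
      4 ∣ {y ∈ Y | u * y ≠ y * u}.ncard) : False := by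
  obtain ⟨z, z1, z2, zg, hz⟩ := h.exists_z
  have pw := tw_pw h hz z1 z2 zg hS h1 h2
  have e : (fun s t => ∃ α : MulAut G, im α S = S ∧ α z = s ∧ α (g * z * g⁻¹) = t) z (g * z * g⁻¹) :=
    ⟨1, Subgroup.map_id _, rfl, rfl⟩
  refine pw_four pw e (four _ ?_ _ (pw.mem _ _ e).2.1 (pw.mem _ _ e).2.2.2.1)
  rintro α hα _ ⟨_, _, _, ⟨β, hβ, rfl, rfl⟩, ⟨γ, hγ, e1, rfl⟩, e2, rfl⟩
  exact ⟨α (β z), _, _, ⟨α * β, by rw [end_im_mul, hβ, hα], rfl, rfl⟩,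
    ⟨α * γ, by rw [end_im_mul, hγ, hα], congrArg α e1, rfl⟩, by rw [← e2, map_commutatorElement]; rfl, map_mul _ _ _⟩

end Cfsg.Lib.AN
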